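import Mathlib

/-! Nilpotent endomorphisms with one-dimensional kernel (regular nilpotent elements). -/

namespace Cfsg.Agent.ClassicalElem

variable {K V : Type*} [Field K] [AddCommGroup V] [Module K V] [FiniteDimensional K V]

/-- `N` is nilpotent with a one-dimensional kernel on a space of dimension `n`. -/
structure IsRegularNilpotent (N : V →ₗ[K] V) (n : ℕ) : Prop where
  finrank_eq : Module.finrank K V = n
  pow_eq_zero : N ^ n = 0
  rank_eq : Module.finrank K (LinearMap.range N) = n - 1
  pos : 1 ≤ n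

theorem isRegularNilpotent_of_matrix {K ι : Type*} [Field K] [Fintype ι] [DecidableEq ι]
    (M : Matrix ι ι K) (n : ℕ) (hcard : Fintype.card ι = n) (hn : 1 ≤ n)
    (hnil : M ^ n = 0) (hrank : M.rank = n - 1) :
    IsRegularNilpotent (Matrix.toLin' M) n where
  finrank_eq := by rw [Module.finrank_fintype_fun_eq_card, hcard]
  pow_eq_zero := by rw [← Matrix.toLin'_pow, hnil, map_zero]
  rank_eq := hrank
  pos := hn

namespace IsRegularNilpotent

variable {N : V →ₗ[K] V} {n : ℕ}

theorem finrank_ker (h : IsRegularNilpotent N n) : Module.finrank K (LinearMap.ker N) = 1 := by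
  have := LinearMap.finrank_range_add_finrank_ker N
  rw [h.rank_eq, h.finrank_eq] at this
  have := h.pos
  omega

theorem finrank_ker_pow_succ_le (h : IsRegularNilpotent N n) (k : ℕ) :
    Module.finrank K (LinearMap.ker (N ^ (k + 1))) ≤ Module.finrank K (LinearMap.ker (N ^ k)) + 1 := by
  set g := N.domRestrict (LinearMap.ker (N ^ (k + 1))) with hg
  have h1 : LinearMap.range g ≤ LinearMap.ker (N ^ k) := by
    rintro _ ⟨⟨x, hx⟩, rfl⟩
    rw [LinearMap.mem_ker, pow_succ, Module.End.mul_apply] at hx
    exact LinearMap.mem_ker.mpr hx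
  have h2 : Module.finrank K (LinearMap.ker g) ≤ 1 := by
    refine le_of_le_of_eq ?_ h.finrank_ker
    let e : LinearMap.ker g →ₗ[K] LinearMap.ker N :=
      ((LinearMap.ker (N ^ (k + 1))).subtype.comp (LinearMap.ker g).subtype).codRestrict _
        (fun x => LinearMap.mem_ker.mpr (LinearMap.mem_ker.mp x.2))
    refine LinearMap.finrank_le_finrank_of_injective (f := e) fun a b hab => ?_
    have := congrArg Subtype.val hab
    exact Subtype.ext (Subtype.ext this)
  have h3 := LinearMap.finrank_range_add_finrank_ker g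
  have h4 := Submodule.finrank_mono h1
  omega

/-- `ker N^k` has dimension `k` for `k ≤ n`. -/
theorem finrank_ker_pow (h : IsRegularNilpotent N n) {k : ℕ} (hk : k ≤ n) :
    Module.finrank K (LinearMap.ker (N ^ k)) = k := by
  have hle : ∀ j i, Module.finrank K (LinearMap.ker (N ^ (i + j))) ≤
      Module.finrank K (LinearMap.ker (N ^ i)) + j := by
    intro j
    induction j with
    | zero => simp
    | succ j ih =>
      intro i
      have := h.finrank_ker_pow_succ_le (i + j)
      have := ih i
      rw [← add_assoc]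
      omega
  have h1 := hle k 0
  have h2 := hle (n - k) k
  rw [Nat.add_sub_cancel' hk, h.pow_eq_zero, LinearMap.ker_zero, finrank_top, h.finrank_eq] at h2
  rw [zero_add, pow_zero, Module.End.one_eq_id, LinearMap.ker_id, finrank_bot] at h1
  omega

/-- Every invariant subspace is the kernel of a power. -/
theorem invariant_eq_ker (h : IsRegularNilpotent N n) {W : Submodule K V} (hW : ∀ w ∈ W, N w ∈ W) :
    W = LinearMap.ker (N ^ Module.finrank K W) := by
  have hd : Module.finrank K W ≤ n := h.finrank_eq ▸ Submodule.finrank_le W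
  refine Submodule.eq_of_le_of_finrank_eq ?_ (h.finrank_ker_pow hd).symm
  intro w hw
  have hnil : IsNilpotent (N.restrict hW) := ⟨n, by
    apply LinearMap.ext
    intro x
    apply Subtype.ext
    rw [Module.End.pow_restrict n]
    simp [LinearMap.restrict_coe_apply, h.pow_eq_zero]⟩
  have h0 : (N.restrict hW) ^ Module.finrank K W = 0 := by
    have := (N.restrict hW).aeval_self_charpoly
    rwa [hnil.charpoly_eq_X_pow_finrank, map_pow, Polynomial.aeval_X] at this
  have h1 := congrArg Subtype.val (LinearMap.congr_fun h0 ⟨w, hw⟩)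
  rw [Module.End.pow_restrict (Module.finrank K W)] at h1
  rw [LinearMap.mem_ker]
  exact h1

/-- A cyclic vector exists, and its orbit is a basis. -/
theorem exists_basis (h : IsRegularNilpotent N n) {v : V} (hv : (N ^ (n - 1)) v ≠ 0) :
    ∃ b : Module.Basis (Fin n) K V, ∀ i : Fin n, b i = (N ^ (i : ℕ)) v := by
  classical
  set b₀ : Fin n → V := fun i => (N ^ (i : ℕ)) v with hb₀
  set W := Submodule.span K (Set.range b₀) with hWdef
  have hW : ∀ w ∈ W, N w ∈ W := by
    intro w hw
    refine Submodule.span_induction ?_ (by simp) (fun x y _ _ hx hy => by rw [map_add]; exact W.add_mem hx hy)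
      (fun c x _ hx => by rw [map_smul]; exact W.smul_mem c hx) hw
    rintro _ ⟨i, rfl⟩
    simp only [hb₀]
    rw [← Module.End.mul_apply, ← pow_succ']
    by_cases hi : (i : ℕ) + 1 < n
    · exact Submodule.subset_span ⟨⟨_, hi⟩, rfl⟩
    · rw [show (i : ℕ) + 1 = n by omega, h.pow_eq_zero]
      exact W.zero_mem
  have hfin : Module.finrank K W = n := by
    refine le_antisymm (h.finrank_eq ▸ Submodule.finrank_le W) ?_
    by_contra hlt
    have hker := h.invariant_eq_ker hW
    have hv1 : v ∈ W := Submodule.subset_span ⟨⟨0, h.pos⟩, by simp [hb₀]⟩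
    rw [hker, LinearMap.mem_ker] at hv1
    apply hv
    rw [show n - 1 = (n - 1 - Module.finrank K W) + Module.finrank K W by omega, pow_add,
      Module.End.mul_apply, hv1, map_zero]
  have hcard : (Set.range b₀).finrank K = n := hfin
  have hli : LinearIndependent K b₀ := by
    rw [linearIndependent_iff_card_eq_finrank_span, Fintype.card_fin, hcard]
  haveI : Nonempty (Fin n) := ⟨⟨0, h.pos⟩⟩
  exact ⟨basisOfLinearIndependentOfCardEqFinrank hli (by simp [h.finrank_eq]),
    fun i => by simp [hb₀]⟩

theorem exists_cyclic_vector (h : IsRegularNilpotent N n) : ∃ v : V, (N ^ (n - 1)) v ≠ 0 := by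
  by_contra hne
  push Not at hne
  have := h.finrank_ker_pow (k := n - 1) (Nat.sub_le n 1)
  rw [show LinearMap.ker (N ^ (n - 1)) = ⊤ from eq_top_iff.mpr fun v _ => hne v, finrank_top, h.finrank_eq] at this
  have := h.pos
  omega

/-- The centralizer is parametrised by the image of a cyclic vector. -/
theorem centralizer_ext (h : IsRegularNilpotent N n) {v : V} (hv : (N ^ (n - 1)) v ≠ 0)
    {g g' : V →ₗ[K] V} (hg : Commute g N) (hg' : Commute g' N) (heq : g v = g' v) : g = g' := by
  obtain ⟨b, hb⟩ := h.exists_basis hv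
  refine b.ext fun i => ?_
  rw [hb]
  change (g * N ^ (i : ℕ)) v = (g' * N ^ (i : ℕ)) v
  rw [(hg.pow_right _).eq, (hg'.pow_right _).eq, Module.End.mul_apply, Module.End.mul_apply, heq]

theorem exists_commuting_map (h : IsRegularNilpotent N n) {v : V} (hv : (N ^ (n - 1)) v ≠ 0) (w : V) :
    ∃ g : V →ₗ[K] V, Commute g N ∧ g v = w := by
  classical
  obtain ⟨b, hb⟩ := h.exists_basis hv
  set g : V →ₗ[K] V := b.constr K (fun i => (N ^ (i : ℕ)) w) with hgdef
  refine ⟨g, b.ext fun i => ?_, ?_⟩
  · have hgb : g (b i) = (N ^ (i : ℕ)) w := by rw [hgdef, Module.Basis.constr_basis]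
    rw [Module.End.mul_apply, Module.End.mul_apply, hgb, hb]
    show g ((N * N ^ (i : ℕ)) v) = (N * N ^ (i : ℕ)) w
    rw [← pow_succ']
    by_cases hi : (i : ℕ) + 1 < n
    · have := hb ⟨_, hi⟩
      simp only at this
      rw [← this, hgdef, Module.Basis.constr_basis]
    · rw [show (i : ℕ) + 1 = n by omega, h.pow_eq_zero]
      simp
  · have h0 := hb ⟨0, h.pos⟩
    simp at h0
    rw [← h0, hgdef, Module.Basis.constr_basis]
    simp

/-- An element of the centralizer is a scalar plus a nilpotent, with the scalar read off at `ker N`. -/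
theorem isUnit_commuting_iff (h : IsRegularNilpotent N n) {v : V} (hv : (N ^ (n - 1)) v ≠ 0)
    {g : V →ₗ[K] V} (hg : Commute g N) : IsUnit g ↔ (N ^ (n - 1)) (g v) ≠ 0 := by
  constructor
  · intro hu h0
    apply hv
    have hinj : Function.Injective g := ((Module.End.isUnit_iff g).mp hu).injective
    apply hinj
    rw [map_zero, ← h0]
    change (g * N ^ (n - 1)) v = (N ^ (n - 1) * g) v
    rw [(hg.pow_right _).eq]
  · intro hgv
    obtain ⟨g', hg', hg'v⟩ := h.exists_commuting_map hgv v
    rw [Module.End.isUnit_iff]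
    have h1 : g' * g = 1 := by
      refine h.centralizer_ext hv (hg'.mul_left hg) (Commute.one_left N) ?_
      rw [Module.End.mul_apply, hg'v, Module.End.one_apply]
    have hinj : Function.Injective g := fun x y hxy => by
      have := congrArg g' hxy
      rwa [← Module.End.mul_apply, ← Module.End.mul_apply, h1] at this
    exact ⟨hinj, LinearMap.injective_iff_surjective.mp hinj⟩

/-- The number of invertible elements centralizing a regular nilpotent element. -/
theorem card_units_centralizer [Finite K] (h : IsRegularNilpotent N n) :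
    Nat.card {g : (V →ₗ[K] V)ˣ // Commute (g : V →ₗ[K] V) N} = (Nat.card K - 1) * Nat.card K ^ (n - 1) := by
  classical
  haveI : Finite V := Module.finite_of_finite K
  obtain ⟨v, hv⟩ := h.exists_cyclic_vector
  have e : {g : (V →ₗ[K] V)ˣ // Commute (g : V →ₗ[K] V) N} ≃ ((LinearMap.ker (N ^ (n - 1)) : Set V)ᶜ : Set V) := by
    refine Equiv.ofBijective (fun g => ⟨(g.1 : V →ₗ[K] V) v, (h.isUnit_commuting_iff hv g.2).mp g.1.isUnit⟩) ⟨?_, ?_⟩
    · rintro ⟨g, hg⟩ ⟨g', hg'⟩ hgg
      exact Subtype.ext (Units.ext (h.centralizer_ext hv hg hg' (congrArg Subtype.val hgg)))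
    · rintro ⟨w, hw⟩
      obtain ⟨g, hg, hgv⟩ := h.exists_commuting_map hv w
      have hu : IsUnit g := (h.isUnit_commuting_iff hv hg).mpr (by rw [hgv]; exact hw)
      exact ⟨⟨hu.unit, hg⟩, Subtype.ext hgv⟩
  rw [Nat.card_congr e, Nat.card_coe_set_eq, Set.ncard_compl, ← Nat.card_coe_set_eq, SetLike.coe_sort_coe,
    Module.natCard_eq_pow_finrank (K := K) (V := V),
    Module.natCard_eq_pow_finrank (K := K) (V := LinearMap.ker (N ^ (n - 1))),
    h.finrank_ker_pow (Nat.sub_le n 1), h.finrank_eq]
  obtain ⟨m, rfl⟩ : ∃ m, n = m + 1 := ⟨n - 1, by have := h.pos; omega⟩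
  rw [pow_succ, Nat.add_sub_cancel, Nat.sub_mul, one_mul, mul_comm]

theorem range_eq_ker_pow (h : IsRegularNilpotent N n) {k : ℕ} (hk : k ≤ n) :
    LinearMap.range (N ^ (n - k)) = LinearMap.ker (N ^ k) := by
  refine Submodule.eq_of_le_of_finrank_eq ?_ ?_
  · rintro _ ⟨x, rfl⟩
    rw [LinearMap.mem_ker, ← Module.End.mul_apply, ← pow_add, Nat.add_sub_cancel' hk, h.pow_eq_zero,
      LinearMap.zero_apply]
  · have := LinearMap.finrank_range_add_finrank_ker (N ^ (n - k))
    rw [h.finrank_ker_pow (Nat.sub_le n k), h.finrank_eq] at this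
    rw [h.finrank_ker_pow hk]
    omega

/-- An element of the centralizer has determinant a power `c ^ n`. -/
theorem det_commuting (h : IsRegularNilpotent N n) {g : V →ₗ[K] V} (hg : Commute g N) :
    ∃ c : K, LinearMap.det g = c ^ n := by
  obtain ⟨v, hv⟩ := h.exists_cyclic_vector
  have hspan : LinearMap.ker N = Submodule.span K {(N ^ (n - 1)) v} := by
    refine (Submodule.eq_of_le_of_finrank_eq ?_ ?_).symm
    · rw [Submodule.span_singleton_le_iff_mem, LinearMap.mem_ker, ← Module.End.mul_apply, ← pow_succ',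
        Nat.sub_add_cancel h.pos, h.pow_eq_zero, LinearMap.zero_apply]
    · rw [finrank_span_singleton hv, h.finrank_ker]
  have h1 : (N ^ (n - 1)) (g v) ∈ LinearMap.ker N := by
    rw [LinearMap.mem_ker, ← Module.End.mul_apply, ← pow_succ', Nat.sub_add_cancel h.pos, h.pow_eq_zero,
      LinearMap.zero_apply]
  rw [hspan, Submodule.mem_span_singleton] at h1
  obtain ⟨c, hc⟩ := h1
  refine ⟨c, ?_⟩
  have h2 : g v - c • v ∈ LinearMap.range N := by
    have h4 : LinearMap.range N = LinearMap.ker (N ^ (n - 1)) := by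
      have := h.range_eq_ker_pow (k := n - 1) (Nat.sub_le n 1)
      rwa [show n - (n - 1) = 1 by have := h.pos; omega, pow_one] at this
    rw [h4, LinearMap.mem_ker, map_sub, map_smul, hc, sub_self]
  obtain ⟨w, hw⟩ := h2
  obtain ⟨g', hg', hg'v⟩ := h.exists_commuting_map hv w
  set M := N * g' with hM
  have hcommc : Commute (c • (1 : V →ₗ[K] V)) N := (Commute.one_left N).smul_left c
  have hMN : Commute M N := (Commute.refl N).mul_left hg'
  have hgeq : g = c • 1 + M := by
    refine h.centralizer_ext hv hg (hcommc.add_left hMN) ?_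
    simp [hM, hg'v, hw]
  have hnil : IsNilpotent (-M) :=
    IsNilpotent.neg ⟨n, by rw [hM, hg'.symm.mul_pow, h.pow_eq_zero, zero_mul]⟩
  have := LinearMap.eval_charpoly (-M) c
  rw [hnil.charpoly_eq_X_pow_finrank, Polynomial.eval_pow, Polynomial.eval_X, h.finrank_eq] at this
  rw [this, hgeq]
  congr 1
  rw [sub_neg_eq_add, Algebra.algebraMap_eq_smul_one]

/-- Two regular nilpotent endomorphisms of spaces of the same dimension are similar. -/
theorem exists_conj {W : Type*} [AddCommGroup W] [Module K W] [FiniteDimensional K W] {N' : W →ₗ[K] W}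
    (h : IsRegularNilpotent N n) (h' : IsRegularNilpotent N' n) :
    ∃ P : V ≃ₗ[K] W, ∀ x, P (N x) = N' (P x) := by
  obtain ⟨v, hv⟩ := h.exists_cyclic_vector
  obtain ⟨v', hv'⟩ := h'.exists_cyclic_vector
  obtain ⟨b, hb⟩ := h.exists_basis hv
  obtain ⟨b', hb'⟩ := h'.exists_basis hv'
  refine ⟨b.equiv b' (Equiv.refl _), fun x => ?_⟩
  have key : (b.equiv b' (Equiv.refl _)).toLinearMap.comp N = N'.comp (b.equiv b' (Equiv.refl _)).toLinearMap := by
    refine b.ext fun i => ?_
    simp only [LinearMap.comp_apply, LinearEquiv.coe_coe, Module.Basis.equiv_apply, Equiv.refl_apply]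
    rw [hb, hb', ← Module.End.mul_apply, ← pow_succ', ← Module.End.mul_apply, ← pow_succ']
    by_cases hi : (i : ℕ) + 1 < n
    · have e1 := hb ⟨_, hi⟩
      have e2 := hb' ⟨_, hi⟩
      simp only at e1 e2
      rw [← e1, ← e2, Module.Basis.equiv_apply, Equiv.refl_apply]
    · rw [show (i : ℕ) + 1 = n by omega, h.pow_eq_zero, h'.pow_eq_zero]
      simp
  exact LinearMap.congr_fun key x

end IsRegularNilpotent

/-- The shift matrix is regular nilpotent, and matrices with regular nilpotent `M` are similar to it. -/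
theorem isConj_of_regular {K ι : Type*} [Field K] [Fintype ι] [DecidableEq ι] {M M' : Matrix ι ι K} {n : ℕ}
    (hcard : Fintype.card ι = n) (hn : 1 ≤ n) (h : M ^ n = 0) (hr : M.rank = n - 1)
    (h' : M' ^ n = 0) (hr' : M'.rank = n - 1) :
    ∃ P : Matrix.GeneralLinearGroup ι K, (P : Matrix ι ι K) * M = M' * P := by
  obtain ⟨P, hP⟩ := (isRegularNilpotent_of_matrix M n hcard hn h hr).exists_conj
    (isRegularNilpotent_of_matrix M' n hcard hn h' hr')
  refine ⟨Matrix.GeneralLinearGroup.toLin.symm
    (LinearMap.GeneralLinearGroup.ofLinearEquiv P), ?_⟩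
  apply Matrix.toLin'.injective
  rw [Matrix.toLin'_mul, Matrix.toLin'_mul]
  refine LinearMap.ext fun x => ?_
  have hcoe : Matrix.toLin' ((Matrix.GeneralLinearGroup.toLin.symm
      (LinearMap.GeneralLinearGroup.ofLinearEquiv P) : Matrix.GeneralLinearGroup ι K) : Matrix ι ι K) =
      P.toLinearMap := by
    exact Matrix.toLinAlgEquiv'.apply_symm_apply _
  simp only [LinearMap.comp_apply, hcoe, LinearEquiv.coe_coe]
  exact hP x

end Cfsg.Agent.ClassicalElem
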